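import Mathlib
import Cfsg.Agent.S0675
import Cfsg.Agent.S3972
import Cfsg.Agent.S3559

/-!
# Primitive groups with a transitive cyclic subgroup (helper679, task 30)

`two_transitive_or_solvable_of_cyclic`.
-/

set_option autoImplicit false

namespace Cfsg.Agent.H679

/-- transitive faithful commutative groups are regular -/
theorem stabilizer_eq_bot_of_comm {G Ω : Type*} [Group G] [MulAction G Ω] [FaithfulSMul G Ω] (C : Subgroup G)
    (hc : ∀ a b : C, a * b = b * a) (hC : MulAction.IsPretransitive C Ω) (a : Ω) : MulAction.stabilizer C a = ⊥ := by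
  rw [eq_bot_iff]
  intro c hcs
  rw [Subgroup.mem_bot]
  rw [MulAction.mem_stabilizer_iff] at hcs
  apply Subtype.ext
  apply FaithfulSMul.eq_of_smul_eq_smul (α := Ω)
  intro b
  obtain ⟨d, rfl⟩ := hC.exists_smul_eq a b
  show c • d • a = (1 : G) • d • a
  rw [one_smul, ← mul_smul, hc, mul_smul, hcs]

/-- **A primitive group with a transitive cyclic subgroup is 2-transitive or solvable.** -/
theorem two_transitive_or_solvable_of_cyclic {G Ω : Type*} [Group G] [Finite G] [Finite Ω] [MulAction G Ω]
    (hprim : MulAction.IsPreprimitive G Ω) (htr : MulAction.IsPretransitive G Ω) (C : Subgroup G) (hcyc : IsCyclic C)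
    (hC : MulAction.IsPretransitive C Ω) :
    MulAction.IsMultiplyPretransitive G Ω 2 ∨ Group.IsSolvable (G ⧸ (MulAction.toPermHom G Ω).ker) := by
  classical
  cases nonempty_fintype Ω
  let φ := MulAction.toPermHom G Ω
  let R : Subgroup (Equiv.Perm Ω) := φ.range
  have hRsol : Group.IsSolvable R → Group.IsSolvable (G ⧸ (MulAction.toPermHom G Ω).ker) := by
    intro h
    exact Group.isSolvable_of_isSolvable_injective (f := (QuotientGroup.quotientKerEquivRange φ).toMonoidHom)
      (QuotientGroup.quotientKerEquivRange φ).injective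
  have hsm : ∀ (g : G) (x : Ω), (⟨φ g, g, rfl⟩ : R) • x = g • x := fun g x => rfl
  have h2 : MulAction.IsMultiplyPretransitive R Ω 2 → MulAction.IsMultiplyPretransitive G Ω 2 := by
    intro h
    refine ⟨fun x y => ?_⟩
    obtain ⟨⟨_, g, rfl⟩, hg⟩ := h.exists_smul_eq x y
    refine ⟨g, ?_⟩
    rw [← hg]
    ext i
    rfl
  have hRtr : MulAction.IsPretransitive R Ω := ⟨fun x y => by
    obtain ⟨g, hg⟩ := htr.exists_smul_eq x y
    exact ⟨⟨φ g, g, rfl⟩, hg⟩⟩
  have hRprim : MulAction.IsPreprimitive R Ω := by
    refine { isTrivialBlock_of_isBlock := fun {B} hB => ?_ }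
    apply hprim.isTrivialBlock_of_isBlock
    rw [MulAction.isBlock_iff_smul_eq_or_disjoint] at hB ⊢
    intro g
    exact hB ⟨φ g, g, rfl⟩
  let C' : Subgroup R := C.map φ.rangeRestrict
  have hC'cyc : IsCyclic C' := by
    have : Function.Surjective (φ.rangeRestrict.subgroupMap C) := MonoidHom.subgroupMap_surjective _ _
    exact isCyclic_of_surjective _ this
  have hC'tr : MulAction.IsPretransitive C' Ω := ⟨fun x y => by
    obtain ⟨⟨c, hc⟩, h⟩ := hC.exists_smul_eq x y
    exact ⟨⟨φ.rangeRestrict c, c, hc, rfl⟩, h⟩⟩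
  have hC'st : ∀ a : Ω, MulAction.stabilizer C' a = ⊥ := by
    have := hC'cyc
    let _ : CommGroup C' := IsCyclic.commGroup
    exact fun a => stabilizer_eq_bot_of_comm C' (fun x y => IsCyclic.commGroup.mul_comm x y) hC'tr a
  rcases Nat.lt_or_ge (Nat.card Ω) 2 with h0 | h0
  · right
    apply hRsol
    have : Subsingleton Ω := Finite.card_le_one_iff_subsingleton.1 (by omega)
    have : Subsingleton (Equiv.Perm Ω) := inferInstance
    have : Subsingleton R := inferInstance
    infer_instance
  by_cases hpp : IsPrimePow (Nat.card Ω)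
  · obtain ⟨p, m, hp, hm, hpm⟩ := hpp
    have hp' : p.Prime := hp.nat_prime
    rcases Nat.lt_or_ge m 2 with hm2 | hm2
    · have hm1 : m = 1 := by omega
      subst hm1
      rw [pow_one] at hpm
      rcases S0675.result (by rw [← Nat.card_eq_fintype_card, ← hpm]; exact hp') R with h | h
      · exact Or.inr (hRsol h)
      · exact Or.inl (h2 h)
    · left
      by_contra hn
      obtain ⟨c, hc⟩ := hC'cyc.exists_generator
      have hcard : Nat.card C' = Nat.card Ω := by
        have hne : Nonempty Ω := (Nat.card_pos_iff.1 (by omega)).1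
        obtain ⟨a⟩ := hne
        have h3 := MulAction.card_orbit_mul_card_stabilizer_eq_card_group C' a
        have h4 := MulAction.index_stabilizer C' a
        rw [hC'st a, Subgroup.index_bot] at h4
        rw [h4]
        have h5 : MulAction.orbit C' a = Set.univ := MulAction.orbit_eq_univ C' a
        rw [h5, Set.ncard_univ]
      have ho : orderOf (c : R) = p ^ m := by
        rw [Subgroup.orderOf_coe, orderOf_eq_card_of_forall_mem_zpowers hc, hcard, hpm]
      have h6 := S3972.result p m hp' hm2 (by rw [← Nat.card_eq_fintype_card, ← hpm]) R hRtr (fun h => hn (h2 h)) (c : R) ho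
      exact h6.1 hRprim
  · rcases S3559.result (G := R) hRtr h0 hpp C' hC'cyc ⟨hC'tr, hC'st⟩ with h | h
    · exact absurd hRprim h
    · exact Or.inl (h2 h)

end Cfsg.Agent.H679
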