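import Cfsg.Agent.H679.Lin

/-!
# Elements on which only one nonlinear irreducible character does not vanish (helper679)

`One g χ` : `g` is not central, `χ` is not linear, `χ g ≠ 0` and all other nonlinear irreducible characters vanish at `g`.
-/

set_option autoImplicit false

namespace Cfsg.Agent.H679

open Cfsg Subgroup
open scoped ComplexConjugate

universe u

variable {G : Type u} [Group G]

theorem solvable_of_quot (N : Subgroup G) [N.Normal] (h1 : Group.IsSolvable N) (h2 : Group.IsSolvable (G ⧸ N)) :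
    Group.IsSolvable G := by
  refine Group.isSolvable_of_ker_le_range N.subtype (QuotientGroup.mk' N) ?_
  rw [QuotientGroup.ker_mk', range_subtype]

/-- `g` is not central, `χ` is not linear, `χ g ≠ 0`, the other nonlinear characters vanish at `g` -/
structure One (g : G) (χ : IrrCharacter G) : Prop where
  ncen : g ∉ center G
  nlin : (χ : G → ℂ) 1 ≠ 1
  ne : (χ : G → ℂ) g ≠ 0
  other : ∀ ψ : IrrCharacter G, (ψ : G → ℂ) 1 ≠ 1 → ψ ≠ χ → (ψ : G → ℂ) g = 0

namespace One

theorem conj_one (ψ : IrrCharacter G) : conj ((ψ : G → ℂ) 1) = (ψ : G → ℂ) 1 := by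
  obtain ⟨n, -, hn⟩ := Characters.Core.isIrr_apply_one ψ.2
  rw [hn, Complex.conj_natCast]

variable [Finite G] {g : G} {χ : IrrCharacter G} (h : One g χ)

include h

theorem key [Fintype (IrrCharacter G)] [DecidablePred fun χ : IrrCharacter G => (χ : G → ℂ) 1 = 1] {x : G}
    (hx : ¬ IsConj g x) :
    ∑ ψ ∈ Finset.univ.filter (fun ψ : IrrCharacter G => (ψ : G → ℂ) 1 = 1), (ψ : G → ℂ) g * conj ((ψ : G → ℂ) x) +
      (χ : G → ℂ) g * conj ((χ : G → ℂ) x) = 0 := by
  classical
  cases nonempty_fintype G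
  have h1 := S0145.sum_irr_mul_conj g x
  rw [if_neg hx, ← Finset.sum_filter_add_sum_filter_not Finset.univ
    (fun ψ : IrrCharacter G => (ψ : G → ℂ) 1 = 1)] at h1
  rw [← h1]
  congr 1
  rw [Finset.sum_eq_single χ]
  · intro ψ hψ hne
    rw [Finset.mem_filter] at hψ
    rw [h.other ψ hψ.2 hne, zero_mul]
  · intro hχ
    exact (hχ (Finset.mem_filter.2 ⟨Finset.mem_univ _, h.nlin⟩)).elim

omit [Finite G] in
theorem not_isConj_one : ¬ IsConj g 1 := by
  intro h1
  apply h.ncen
  rw [isConj_one_right.1 h1.symm]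
  exact one_mem _

theorem mem_and : g ∈ commutator G ∧ (χ : G → ℂ) g * (χ : G → ℂ) 1 = -((commutator G).index : ℂ) := by
  classical
  have : Finite (IrrCharacter G) := Characters.Core.finite_irr
  cases nonempty_fintype (IrrCharacter G)
  have h1 := h.key h.not_isConj_one
  have h2 : ∑ ψ ∈ Finset.univ.filter (fun ψ : IrrCharacter G => (ψ : G → ℂ) 1 = 1), (ψ : G → ℂ) g * conj ((ψ : G → ℂ) 1) =
      ∑ ψ ∈ Finset.univ.filter (fun ψ : IrrCharacter G => (ψ : G → ℂ) 1 = 1), (ψ : G → ℂ) g := by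
    refine Finset.sum_congr rfl fun ψ hψ => ?_
    rw [Finset.mem_filter] at hψ
    rw [conj_one, hψ.2, mul_one]
  rw [h2, sum_linear, conj_one] at h1
  split_ifs at h1 with hc
  · exact ⟨hc, by rw [eq_neg_iff_add_eq_zero, add_comm]; exact h1⟩
  · rw [zero_add] at h1
    exact absurd h1 (mul_ne_zero h.ne (Characters.Core.isIrr_apply_one_ne_zero χ.2))

theorem mem : g ∈ commutator G := h.mem_and.1

theorem apply_eq : (χ : G → ℂ) g = -(((commutator G).index : ℂ) / (χ : G → ℂ) 1) := by
  have h0 := Characters.Core.isIrr_apply_one_ne_zero χ.2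
  rw [← neg_div, eq_div_iff h0]
  exact h.mem_and.2

theorem values {x : G} (hx : ¬ IsConj g x) :
    (x ∈ commutator G → (χ : G → ℂ) x = (χ : G → ℂ) 1) ∧ (x ∉ commutator G → (χ : G → ℂ) x = 0) := by
  classical
  have : Finite (IrrCharacter G) := Characters.Core.finite_irr
  cases nonempty_fintype (IrrCharacter G)
  have h1 := h.key hx
  have h2 : ∑ ψ ∈ Finset.univ.filter (fun ψ : IrrCharacter G => (ψ : G → ℂ) 1 = 1), (ψ : G → ℂ) g * conj ((ψ : G → ℂ) x) =
      conj (∑ ψ ∈ Finset.univ.filter (fun ψ : IrrCharacter G => (ψ : G → ℂ) 1 = 1), (ψ : G → ℂ) x) := by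
    rw [map_sum]
    refine Finset.sum_congr rfl fun ψ hψ => ?_
    rw [Finset.mem_filter] at hψ
    rw [linear_apply_eq_one ψ.2 hψ.2 h.mem, one_mul]
  rw [h2, sum_linear] at h1
  constructor
  · intro hc
    rw [if_pos hc, Complex.conj_natCast] at h1
    have h3 := h.mem_and.2
    have h4 : (χ : G → ℂ) g * conj ((χ : G → ℂ) x) = (χ : G → ℂ) g * (χ : G → ℂ) 1 := by
      rw [h3]
      exact eq_neg_of_add_eq_zero_right h1
    have h5 := mul_left_cancel₀ h.ne h4
    rw [← conj_one χ] at h5
    exact (starRingEnd ℂ).injective h5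
  · intro hc
    rw [if_neg hc, map_zero, zero_add] at h1
    have h5 := (mul_eq_zero.1 h1).resolve_left h.ne
    exact (map_eq_zero _).1 h5

theorem zero_off {x : G} (hx : x ∉ commutator G) : (χ : G → ℂ) x = 0 := by
  refine (h.values fun hc => hx ?_).2 hx
  obtain ⟨y, rfl⟩ := isConj_iff.1 hc
  exact (inferInstance : (commutator G).Normal).conj_mem g h.mem y

theorem apply_ne_one : (χ : G → ℂ) g ≠ (χ : G → ℂ) 1 := by
  intro h1
  obtain ⟨n, hn, hn'⟩ := Characters.Core.isIrr_apply_one χ.2
  have h2 := h.mem_and.2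
  rw [h1, hn'] at h2
  have h3 : (((n * n + (commutator G).index : ℕ)) : ℂ) = 0 := by
    push_cast
    rw [h2]
    ring
  have h4 : n * n + (commutator G).index = 0 := by exact_mod_cast h3
  have : 0 < n * n := Nat.mul_pos hn hn
  omega

theorem conj_ne_one {x : G} (hx : IsConj g x) : (χ : G → ℂ) x ≠ (χ : G → ℂ) 1 := by
  obtain ⟨y, rfl⟩ := isConj_iff.1 hx
  rw [Characters.Core.isIrr_isClassFunction χ.2 g y]
  exact h.apply_ne_one

theorem commutator_eq : (commutator G : Set G) = {x : G | (χ : G → ℂ) x = (χ : G → ℂ) 1} ∪ {x : G | IsConj g x} := by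
  ext x
  simp only [Set.mem_union, Set.mem_ofPred_eq, SetLike.mem_coe]
  constructor
  · intro hx
    by_cases hc : IsConj g x
    · exact Or.inr hc
    · exact Or.inl ((h.values hc).1 hx)
  · rintro (hx | hx)
    · by_contra hc
      rw [h.zero_off hc] at hx
      exact Characters.Core.isIrr_apply_one_ne_zero χ.2 hx.symm
    · obtain ⟨y, rfl⟩ := isConj_iff.1 hx
      exact (inferInstance : (commutator G).Normal).conj_mem g h.mem y

/-- uniqueness of the nonlinear character of `G / ker χ` -/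
theorem unique (ψ : IrrCharacter G) (hψ : (ψ : G → ℂ) 1 ≠ 1)
    (hk : ∀ x : G, (χ : G → ℂ) x = (χ : G → ℂ) 1 → (ψ : G → ℂ) x = (ψ : G → ℂ) 1) : ψ = χ := by
  classical
  by_contra hne
  have hg : (ψ : G → ℂ) g = 0 := h.other ψ hψ hne
  have : Finite (IrrCharacter G) := Characters.Core.finite_irr
  cases nonempty_fintype (IrrCharacter G)
  cases nonempty_fintype G
  -- `∑ ψ(x) conj (∑ λ(x)) = 0`
  have h1 : ∑ x : G, (ψ : G → ℂ) x * conj (∑ l ∈ Finset.univ.filter (fun l : IrrCharacter G => (l : G → ℂ) 1 = 1),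
      (l : G → ℂ) x) = 0 := by
    simp only [map_sum, Finset.mul_sum]
    rw [Finset.sum_comm]
    refine Finset.sum_eq_zero fun l hl => ?_
    rw [Finset.mem_filter] at hl
    have h2 : (ψ : G → ℂ) ≠ (l : G → ℂ) := fun h3 => hψ (by rw [h3]; exact hl.2)
    have h4 := Characters.Core.classInner_irr_ne ψ.2 l.2 h2
    rw [classInner] at h4
    exact (mul_eq_zero.1 h4).resolve_left (inv_ne_zero (by exact_mod_cast Nat.card_pos.ne'))
  have h2 : ∀ x : G, (ψ : G → ℂ) x * conj (∑ l ∈ Finset.univ.filter (fun l : IrrCharacter G => (l : G → ℂ) 1 = 1),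
      (l : G → ℂ) x) = if (χ : G → ℂ) x = (χ : G → ℂ) 1 then (ψ : G → ℂ) 1 * ((commutator G).index : ℂ) else 0 := by
    intro x
    rw [sum_linear]
    have h3 : x ∈ commutator G ↔ (χ : G → ℂ) x = (χ : G → ℂ) 1 ∨ IsConj g x := by
      have h4 := h.commutator_eq
      have h5 : x ∈ (commutator G : Set G) ↔ x ∈ {x : G | (χ : G → ℂ) x = (χ : G → ℂ) 1} ∪ {x : G | IsConj g x} := by
        rw [h4]
      exact h5
    by_cases hc : IsConj g x
    · have h6 : (ψ : G → ℂ) x = 0 := by
        obtain ⟨y, rfl⟩ := isConj_iff.1 hc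
        rw [Characters.Core.isIrr_isClassFunction ψ.2 g y, hg]
      rw [h6, zero_mul, if_neg (h.conj_ne_one hc)]
    · by_cases hx : (χ : G → ℂ) x = (χ : G → ℂ) 1
      · rw [if_pos (h3.2 (Or.inl hx)), if_pos hx, hk x hx, Complex.conj_natCast]
      · rw [if_neg (fun h7 => (h3.1 h7).elim hx hc), if_neg hx, map_zero, mul_zero]
  simp only [h2] at h1
  rw [← Finset.sum_filter, Finset.sum_const, nsmul_eq_mul] at h1
  rcases mul_eq_zero.1 h1 with h3 | h3
  · have h4 : (Finset.univ.filter (fun x : G => (χ : G → ℂ) x = (χ : G → ℂ) 1)).card = 0 := by exact_mod_cast h3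
    rw [Finset.card_eq_zero] at h4
    have h5 : (1 : G) ∈ Finset.univ.filter (fun x : G => (χ : G → ℂ) x = (χ : G → ℂ) 1) := by
      rw [Finset.mem_filter]
      exact ⟨Finset.mem_univ _, rfl⟩
    rw [h4] at h5
    exact absurd h5 (Finset.notMem_empty _)
  · rcases mul_eq_zero.1 h3 with h4 | h4
    · exact Characters.Core.isIrr_apply_one_ne_zero ψ.2 h4
    · have h5 : (commutator G).index = 0 := by exact_mod_cast h4
      exact index_ne_zero_of_finite h5

omit h in
/-- the kernel of `χ` as a subgroup -/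
theorem exists_ker (χ : IrrCharacter G) : ∃ K : Subgroup G, K.Normal ∧ ∀ x, x ∈ K ↔ (χ : G → ℂ) x = (χ : G → ℂ) 1 := by
  obtain ⟨n, ρ, -, hρ⟩ := χ.2
  refine ⟨ρ.ker, inferInstance, fun x => ?_⟩
  rw [← hρ, Representation.char_one, Characters.Values.character_eq_finrank_iff, MonoidHom.mem_ker]
  exact Iff.rfl

/-- solvability, from the solvability of the normal subgroups `N` with `g N ⊆ g^G` -/
theorem solvable (hA : ∀ (K : Subgroup G) [K.Normal], CC K g → Group.IsSolvable K) : Group.IsSolvable G := by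
  obtain ⟨K, hKn, hK⟩ := exists_ker χ
  have hgK : g ∉ K := fun hc => h.apply_ne_one ((hK g).1 hc)
  have hmem : ∀ x : G, x ∈ commutator G ↔ x ∈ K ∨ IsConj g x := by
    intro x
    have h4 := h.commutator_eq
    have h5 : x ∈ (commutator G : Set G) ↔ x ∈ {x : G | (χ : G → ℂ) x = (χ : G → ℂ) 1} ∪ {x : G | IsConj g x} := by
      rw [h4]
    rw [hK x]
    exact h5
  have hKle : K ≤ commutator G := fun x hx => (hmem x).2 (Or.inl hx)
  have hcc : CC K g := by
    intro n hn
    have h1 : g * n ∈ commutator G := mul_mem h.mem (hKle hn)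
    rcases (hmem _).1 h1 with h2 | h2
    · exact absurd ((mul_mem_cancel_right hn).1 h2) hgK
    · obtain ⟨y, hy⟩ := isConj_iff.1 h2
      exact ⟨y, hy⟩
  have hKs := hA K hcc
  -- `G' / K` is a `p`-group
  have hq : Group.IsSolvable (G ⧸ K) := by
    let π := QuotientGroup.mk' K
    have hgq : (π g) ≠ 1 := fun hc => hgK ((QuotientGroup.eq_one_iff g).1 hc)
    obtain ⟨p, hp, hpd⟩ := Nat.exists_prime_and_dvd (n := orderOf (π g)) (fun hc => hgq (orderOf_eq_one_iff.1 hc))
    have : Fact p.Prime := ⟨hp⟩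
    have hcm : commutator (G ⧸ K) = (commutator G).map π := by
      rw [_root_.commutator_def, _root_.commutator_def, map_commutator]
      congr 1 <;> rw [← MonoidHom.range_eq_map, MonoidHom.range_eq_top.2 (QuotientGroup.mk'_surjective K)]
    -- all nonidentity elements of the commutator subgroup of the quotient have order `p`
    have hall : ∀ y ∈ commutator (G ⧸ K), y ≠ 1 → orderOf y = orderOf (π g) := by
      intro y hy hy1
      rw [hcm] at hy
      obtain ⟨x, hx, rfl⟩ := hy
      rcases (hmem x).1 hx with h2 | h2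
      · exact absurd ((QuotientGroup.eq_one_iff x).2 h2) hy1
      · obtain ⟨z, rfl⟩ := isConj_iff.1 h2
        rw [map_mul, map_mul, map_inv]
        have h3 : π z * π g * (π z)⁻¹ = MulAut.conj (π z) (π g) := rfl
        rw [h3]
        exact MulEquiv.orderOf_eq _ _
    have hgc : π g ∈ commutator (G ⧸ K) := by
      rw [hcm]
      exact ⟨g, h.mem, rfl⟩
    have hop : orderOf (π g) = p := by
      have h3 : orderOf (π g ^ (orderOf (π g) / p)) = p := by
        rw [orderOf_pow_of_dvd, Nat.div_div_self hpd (orderOf_pos _).ne']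
        · exact (Nat.div_pos (Nat.le_of_dvd (orderOf_pos _) hpd) hp.pos).ne'
        · exact Nat.div_dvd_of_dvd hpd
      rw [← h3]
      refine (hall _ (pow_mem hgc _) fun hc => ?_).symm
      rw [hc, orderOf_one] at h3
      exact hp.one_lt.ne h3
    have hpg : IsPGroup p (commutator (G ⧸ K)) := by
      intro y
      refine ⟨1, ?_⟩
      rw [pow_one]
      apply Subtype.ext
      show (y : G ⧸ K) ^ p = 1
      by_cases hy : (y : G ⧸ K) = 1
      · rw [hy, one_pow]
      · rw [← hop, ← hall y y.2 hy, pow_orderOf_eq_one]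
    have hs1 : Group.IsSolvable (commutator (G ⧸ K)) := by
      have := hpg.isNilpotent
      infer_instance
    have hs2 : Group.IsSolvable ((G ⧸ K) ⧸ commutator (G ⧸ K)) := by
      have : Group.IsSolvable (Abelianization (G ⧸ K)) := inferInstance
      exact this
    exact solvable_of_quot _ hs1 hs2
  exact solvable_of_quot K hKs hq

end One

end Cfsg.Agent.H679
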