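import Cfsg.Agent.H404.Avg.Good
import Cfsg.Agent.H254.CopCard
import Cfsg.Agent.H565.TwField
import Cfsg.Agent.H69.OutCount
import Cfsg.Agent.S2121
import Cfsg.Agent.S2122
import Cfsg.Agent.S2124
import Cfsg.Agent.S2125
import Cfsg.Agent.S2130

/-!
# A cyclic subgroup of small index in `Out S` for the exceptional groups (helper679, task 1388, for S4831)

`OutIdx S c` for `S` of type `G₂`, `F₄`, `E₇`, `E₈`, `²E₆`: the field automorphisms are a cyclic group meeting the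
inner automorphisms trivially, and the order of `Out S` is known.

* `outIdx_of` : `OutIdx S c` if `g ^ k ∈ Inn S → m ∣ k` and `|Out S| ≤ c m`;
* `outIdx_chev` : the Chevalley groups, from the order of `Out`;
* `idx_g2`, `idx_f4`, `idx_e7`, `idx_e8`, `idx_2e6`.
-/

set_option autoImplicit false

namespace Cfsg.Agent.H679.OutIdxExc

open Cfsg Cfsg.Agent.H404.Avg

universe u

/-- A criterion for `OutIdx`. -/
theorem outIdx_of {S : Type u} [Group S] [Finite S] {g : MulAut S} {m c : ℕ} (hm : 0 < m)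
    (h : ∀ k : ℕ, g ^ k ∈ (MulAut.conj : S →* MulAut S).range → m ∣ k)
    (hc : Nat.card (Cfsg.Out S) ≤ c * m) : OutIdx S c := by
  refine ⟨g, ?_⟩
  set N : Subgroup (MulAut S) := (MulAut.conj : S →* MulAut S).range with hN
  set H : Subgroup (MulAut S) := N ⊔ Subgroup.zpowers g with hH
  have hcard : Nat.card (Cfsg.Out S) = N.index := rfl
  have h1 : N.relIndex H * H.index = N.index := Subgroup.relIndex_mul_index le_sup_left
  have h2 : N.relIndex H = N.relIndex (Subgroup.zpowers g) := by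
    rw [hH, sup_comm]
    have : N.Normal := inferInstanceAs (Cfsg.Inn S).Normal
    exact Subgroup.relIndex_sup_right _ _
  have h0 : N.index ≠ 0 := Subgroup.index_ne_zero_of_finite
  have h3 : N.relIndex (Subgroup.zpowers g) ≠ 0 := by
    intro h3
    rw [h2, h3, zero_mul] at h1
    exact h0 h1.symm
  have h4 : m ≤ N.relIndex (Subgroup.zpowers g) := by
    -- `1, g, …, g ^ (m - 1)` are in different cosets
    have hinj : Function.Injective (fun i : Fin m =>
        (QuotientGroup.mk ⟨g ^ (i : ℕ), Subgroup.npow_mem_zpowers g _⟩ :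
          ↥(Subgroup.zpowers g) ⧸ N.subgroupOf (Subgroup.zpowers g))) := by
      have key : ∀ i j : Fin m, (i : ℕ) ≤ j →
          (QuotientGroup.mk ⟨g ^ (i : ℕ), Subgroup.npow_mem_zpowers g _⟩ :
            ↥(Subgroup.zpowers g) ⧸ N.subgroupOf (Subgroup.zpowers g)) =
          QuotientGroup.mk ⟨g ^ (j : ℕ), Subgroup.npow_mem_zpowers g _⟩ → i = j := by
        intro i j hij e
        rw [QuotientGroup.eq] at e
        have e1 : (g ^ (i : ℕ))⁻¹ * g ^ (j : ℕ) ∈ N := e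
        rw [show (g ^ (i : ℕ))⁻¹ * g ^ (j : ℕ) = g ^ ((j : ℕ) - i) by
          rw [inv_mul_eq_iff_eq_mul, ← pow_add, Nat.add_sub_cancel' hij]] at e1
        have e2 := h _ e1
        have e3 := Nat.eq_zero_of_dvd_of_lt e2 (by omega)
        exact Fin.ext (by omega)
      intro i j e
      rcases le_total (i : ℕ) j with hij | hij
      · exact key i j hij e
      · exact (key j i hij e.symm).symm
    have : Finite (↥(Subgroup.zpowers g) ⧸ N.subgroupOf (Subgroup.zpowers g)) := inferInstance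
    have h5 := Nat.card_le_card_of_injective _ hinj
    rwa [Nat.card_fin] at h5
  rw [hcard, ← h1, h2] at hc
  by_contra hcon
  push Not at hcon
  have h6 : c * m < N.relIndex (Subgroup.zpowers g) * H.index := by
    calc c * m < H.index * m := Nat.mul_lt_mul_of_pos_right hcon hm
      _ ≤ H.index * N.relIndex (Subgroup.zpowers g) := Nat.mul_le_mul_left _ h4
      _ = _ := mul_comm _ _
  omega

section Chev

open Cfsg.Lie Cfsg.Agent.ChevalleyStructure Cfsg.Agent.ChevalleyStructure.Elts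
  Cfsg.Agent.ChevalleyStructure.NConj Cfsg.Agent.ChevalleyStructure.BNChev Cfsg.Agent.S1042
  Cfsg.Agent.Schreier.ChevLocal Cfsg.Agent.H70.AutFix Cfsg.Agent.H70.ChevTab Cfsg.Agent.H70.ChevFix
  Cfsg.Agent.H70.ChevField Cfsg.Agent.H70.PermFix Cfsg.Agent.H70.ChevDiag Cfsg.Agent.H70.OutCount

variable {D : ChevalleyDatum} (hD : InList D) {F : Type u} [Field F]

/-- An inner automorphism which is a field automorphism is trivial. -/
theorem eq_one_of_inner [Finite F] {τ : F ≃+* F} {x : ↥(D.group F)}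
    (h : ∀ r < D.nroots, ∀ t : F, MulAut.conj x (xe hD r t) = xe hD r (τ t)) : τ = 1 := by
  have hrank : 0 < D.rank := (RootComb.good_of_mem hD).rank_pos
  have hP : Perm D F (MulAut.conj x) 1 := by
    refine perm_one_of_values hD (c := fun _ => 1) (σ := fun _ => τ) (fun _ => one_ne_zero) ?_ ?_
    · intro i t
      rw [h _ (simple_lt hD i.2), one_mul]
    · intro i t
      rw [h _ (neg_simple_lt hD i.2), inv_one, one_mul]
  have hx : x ∈ HH D F := by
    rw [← normalizer_inf hD, Subgroup.mem_inf, mem_normalizer_iff_smul, mem_normalizer_iff_smul]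
    exact ⟨Perm.smul_UU hD hP, Perm.smul_VN hD hP⟩
  have hr := simple_lt hD hrank
  obtain ⟨c, hc, h1⟩ := diagonal_conj hD hx hr
  have h2 : ∀ t : F, τ t = c * t := by
    intro t
    apply xe_inj hD hr
    rw [← h _ hr]
    exact Subtype.ext (h1 t)
  have hc1 : c = 1 := by
    have := h2 1
    rw [map_one, mul_one] at this
    exact this.symm
  ext t
  rw [h2, hc1, one_mul]
  rfl

/-- The Chevalley groups. -/
theorem outIdx_chev (hD : InList D) [Finite F] {c : ℕ}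
    (hc : Nat.card (Cfsg.Out ↥(D.group F)) ≤ c * Nat.card (F ≃+* F)) : OutIdx ↥(D.group F) c := by
  obtain ⟨ρ, hρ, -⟩ := Cfsg.Agent.H254.exists_ringAut F
  obtain ⟨α, hα⟩ := exists_fieldAut hD ρ
  have hpow : ∀ k : ℕ, ∀ r < D.nroots, ∀ t : F, (α ^ k) (xe hD r t) = xe hD r ((ρ ^ k) t) := by
    intro k
    induction k with
    | zero => intro r _ t; rw [pow_zero, pow_zero]; rfl
    | succ k ih =>
      intro r hr t
      rw [pow_succ, pow_succ, MulAut.mul_apply, hα r hr, ih r hr]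
      rfl
  have : Finite (F ≃+* F) := Finite.of_injective (fun τ : F ≃+* F => (τ : F → F)) DFunLike.coe_injective
  refine outIdx_of (g := α) (m := Nat.card (F ≃+* F)) Nat.card_pos ?_ hc
  rintro k ⟨x, hx⟩
  rw [← hρ, orderOf_dvd_iff_pow_eq_one]
  refine eq_one_of_inner hD (x := x) fun r hr t => ?_
  rw [hx]
  exact hpow k r hr t

end Chev

section Rows

open Cfsg.Lie Cfsg.Agent.ChevalleyStructure

variable {S : Type u} [Group S]

/-- A finite field has `p ^ f` elements. -/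
theorem exists_pf (F : Type*) [Field F] [Fintype F] :
    ∃ (p f : ℕ) (_ : Fact p.Prime) (_ : CharP F p), 1 ≤ f ∧ Fintype.card F = p ^ f := by
  obtain ⟨p, hp⟩ := CharP.exists F
  obtain ⟨n, hpp, hn⟩ := FiniteField.card F p
  exact ⟨p, n, ⟨hpp⟩, hp, n.pos, hn⟩

theorem idx_g2 (h : Cfsg.Lie.IsoChevG2 S) : OutIdx S 2 := by
  obtain ⟨F, _, _, hF, ⟨e⟩⟩ := h
  obtain ⟨p, f, _, _, hf, hpf⟩ := exists_pf F
  have h1 := Cfsg.Agent.S2121.result (F := F) p f hpf (by rw [← hpf]; exact hF)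
  have h2 : Nat.card (F ≃+* F) = f := Cfsg.Agent.Lib.FieldAutCard.card_ringAut hf hpf
  refine OutIdx.congr (outIdx_chev Cfsg.Agent.H69.OutGF.hG2 (F := F) ?_) e.symm
  rw [h1, h2]
  split_ifs <;> omega

theorem idx_f4 (h : Cfsg.Lie.IsoF4 S) : OutIdx S 2 := by
  obtain ⟨F, _, _, ⟨e⟩⟩ := h
  obtain ⟨p, f, _, _, hf, hpf⟩ := exists_pf F
  have h1 := Cfsg.Agent.S2122.result (F := F) p f hpf
  have h2 : Nat.card (F ≃+* F) = f := Cfsg.Agent.Lib.FieldAutCard.card_ringAut hf hpf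
  refine OutIdx.congr (outIdx_chev Cfsg.Agent.H69.OutGF.hF4 (F := F) ?_) e.symm
  rw [h1, h2]
  exact Nat.mul_le_mul_right _ (Nat.le_of_dvd two_pos (Nat.gcd_dvd_left 2 p))

theorem idx_e7 (h : Cfsg.Lie.IsoE7 S) : OutIdx S 2 := by
  obtain ⟨F, _, _, ⟨e⟩⟩ := h
  obtain ⟨p, f, _, _, hf, hpf⟩ := exists_pf F
  have h1 := Cfsg.Agent.S2124.result (F := F) p f hpf
  have h2 : Nat.card (F ≃+* F) = f := Cfsg.Agent.Lib.FieldAutCard.card_ringAut hf hpf
  refine OutIdx.congr (outIdx_chev Cfsg.Agent.H70.OutE.inList_E7 (F := F) ?_) e.symm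
  rw [h1, h2]
  exact Nat.mul_le_mul_right _ (Nat.le_of_dvd two_pos (Nat.gcd_dvd_left 2 _))

theorem idx_e8 (h : Cfsg.Lie.IsoE8 S) : OutIdx S 1 := by
  obtain ⟨F, _, _, ⟨e⟩⟩ := h
  obtain ⟨p, f, _, _, hf, hpf⟩ := exists_pf F
  have h1 := Cfsg.Agent.S2125.result (F := F) p f hpf
  have h2 : Nat.card (F ≃+* F) = f := Cfsg.Agent.Lib.FieldAutCard.card_ringAut hf hpf
  refine OutIdx.congr (outIdx_chev Cfsg.Agent.H70.OutE.inList_E8 (F := F) ?_) e.symm
  rw [h1, h2, one_mul]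

/-- A finite field with `q²` elements, `q` a prime power. -/
theorem exists_pf2 (K : Type*) [Field K] [Fintype K] {q : ℕ} (hq : IsPrimePow q) (hK : Fintype.card K = q ^ 2) :
    ∃ (p f : ℕ) (_ : Fact p.Prime) (_ : CharP K p), 1 ≤ f ∧ q = p ^ f ∧ Fintype.card K = p ^ (2 * f) := by
  obtain ⟨p, f, hp, hf, rfl⟩ := (isPrimePow_nat_iff _).1 hq
  have hpf : Fintype.card K = p ^ (2 * f) := by rw [hK, ← pow_mul, mul_comm]
  have hc : CharP K p := by
    obtain ⟨r, hr⟩ := CharP.exists K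
    obtain ⟨n, hrp, hn⟩ := FiniteField.card K r
    have h1 : r ∣ p ^ (2 * f) := by
      rw [← hpf, hn]
      exact dvd_pow_self r n.pos.ne'
    have h2 : r = p := (Nat.prime_dvd_prime_iff_eq hrp hp).1 (hrp.dvd_of_dvd_pow h1)
    rwa [← h2]
  exact ⟨p, f, ⟨hp⟩, hc, hf, rfl, hpf⟩

open CoxeterSystem Cfsg.Agent.Tits.Roots Cfsg.Agent.Tits.Core
  Cfsg.Agent.Nodes.RGDTwE6 Cfsg.Agent.KFacts.TwESix.NodeCoord Cfsg.Agent.KFacts.TwESix.Out
  Cfsg.Agent.KFacts.TwESix.OutTwo Cfsg.Agent.CpAut.RgdTwE6 in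
theorem idx_2e6 (h : Cfsg.Lie.Iso2E6 S) : OutIdx S 3 := by
  obtain ⟨K, _, _, q, hq, hK, ⟨e⟩⟩ := h
  obtain ⟨p, f, _, _, hf, rfl, hpf⟩ := exists_pf2 K hq hK
  have h1 := Cfsg.Agent.S2130.result (K := K) p f hpf hf
  obtain ⟨φ, hφ, hqq⟩ := TwE6Basic.exists_frob hq hK
  obtain ⟨τ, hτ⟩ := Cfsg.Agent.H565.TwField.exists_ringAut p (2 * f) hpf
  have hW : Finite CoxeterMatrix.F₄.Group :=
    Cfsg.Agent.Nodes.RGDFold.finite_W (hp := Cfsg.Agent.Nodes.RGDTwE6.hp) CoxeterMatrix.F₄.toCoxeterSystem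
      Cfsg.Agent.Nodes.RGDTwE6.isCartan Cfsg.Agent.Nodes.RGDTwE6.foldData
  have R := Cfsg.Agent.Nodes.RGDTwE6.rgd CoxeterMatrix.F₄.toCoxeterSystem hφ hqq p
  have hn := ntau_st hφ hqq τ CoxeterMatrix.F₄.toCoxeterSystem p
  have hS : FTau hφ hqq (st (p ^ f) τ) τ := ⟨hn.diag, fun i t ht => congrArg Subtype.val (hn.char i t ht)⟩
  refine OutIdx.congr (outIdx_of (g := st (p ^ f) τ) (m := 2 * f) (by omega) ?_ ?_) e.symm
  · rintro k ⟨x, hx⟩
    rw [← hτ, orderOf_dvd_iff_pow_eq_one]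
    have h2 : FTau hφ hqq (MulAut.conj x) (τ ^ k) := by
      rw [hx]
      exact ftau_pow hφ hqq hS k
    have h3 := Cfsg.Agent.H69.OutCount.mem_T_of_diag R (G1_top CoxeterMatrix.F₄.toCoxeterSystem hφ hqq) h2.diag
    exact h2.unique hφ hqq (ftau_conj hφ hqq CoxeterMatrix.F₄.toCoxeterSystem p h3)
  · rw [h1]
    have h4 : Nat.gcd 3 (p ^ f + 1) ≤ 3 := Nat.le_of_dvd (by norm_num) (Nat.gcd_dvd_left 3 _)
    calc 2 * Nat.gcd 3 (p ^ f + 1) * f ≤ 2 * 3 * f :=
          Nat.mul_le_mul_right _ (Nat.mul_le_mul_left _ h4)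
      _ = 3 * (2 * f) := by ring

end Rows

end Cfsg.Agent.H679.OutIdxExc
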