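import Cfsg.Agent.H730.PairRow
import Cfsg.Agent.H164.TRowPSL
import Cfsg.Agent.H254.CopLin
import Cfsg.Agent.H254.CopMain
import Cfsg.Agent.S0242

/-!
# `XRow` for the linear groups (helper679, task of helper730)

`x = diag(a, a, a², …, a^(n-2), a^(-s)) (1 + E₀₁)`, `a` a generator of `Fˣ`.
-/

set_option autoImplicit false

namespace Cfsg.Agent.H679.XRowPSL

open Cfsg Matrix Cfsg.Agent.H730.Pair
  Cfsg.Agent.ClassicalGeometry.AutPSL.Auto Cfsg.Agent.ClassicalGeometry.AutPSL.Main
  Cfsg.Agent.ClassicalGeometry.AutPSL.Root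

/-! ### The torus -/

/-- `1, 1, 2, 3, …` -/
def bx (i : ℕ) : ℤ := if i = 0 then 1 else i

/-- `1, 1, 2, …, n - 2, - s` -/
def kx (n i : ℕ) : ℤ := if i + 1 < n then bx i else - ∑ j ∈ Finset.range (n - 1), bx j

theorem bx_pos (i : ℕ) : 0 < bx i := by
  unfold bx
  split_ifs with h
  · norm_num
  · exact_mod_cast Nat.pos_of_ne_zero h

theorem bx_le {i m : ℕ} (hm : 1 ≤ m) (h : i ≤ m) : bx i ≤ m := by
  unfold bx
  split_ifs
  · exact_mod_cast hm
  · exact_mod_cast h

theorem sum_kx {n : ℕ} (hn : 3 ≤ n) : ∑ i : Fin n, kx n i = 0 := by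
  obtain ⟨m, rfl⟩ : ∃ m, n = m + 1 := ⟨n - 1, by omega⟩
  rw [Fin.sum_univ_castSucc]
  have h1 : ∀ i : Fin m, kx (m + 1) ((i.castSucc : Fin (m + 1)) : ℕ) = bx i := by
    intro i
    have := i.2
    rw [kx, if_pos (by rw [Fin.val_castSucc]; omega), Fin.val_castSucc]
  have h2 : kx (m + 1) ((Fin.last m : Fin (m + 1)) : ℕ) = - ∑ j ∈ Finset.range m, bx j := by
    rw [kx, if_neg (by rw [Fin.val_last]; omega)]
    rfl
  rw [Finset.sum_congr rfl fun i _ => h1 i, h2, Fin.sum_univ_eq_sum_range (fun i => bx i) m, add_neg_cancel]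

/-- the bound for the exponents -/
theorem kx_bound {n : ℕ} (hn : 3 ≤ n) {i j : ℕ} (hi : i < n) (hj : j < n) (hij : i < j) (h : 2 ≤ j) :
    0 < |kx n i - kx n j| ∧ |kx n i - kx n j| ≤ (n : ℤ) * n := by
  have hs1 : 0 < ∑ l ∈ Finset.range (n - 1), bx l :=
    Finset.sum_pos (fun l _ => bx_pos l) ⟨0, Finset.mem_range.2 (by omega)⟩
  have hs2 : ∑ l ∈ Finset.range (n - 1), bx l ≤ ((n - 1 : ℕ) : ℤ) * (n - 1 : ℕ) := by
    have := Finset.sum_le_card_nsmul (Finset.range (n - 1)) (fun l => bx l) ((n - 1 : ℕ) : ℤ)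
      (fun l hl => bx_le (by omega) (by rw [Finset.mem_range] at hl; omega))
    rwa [Finset.card_range, nsmul_eq_mul] at this
  have hi1 : i + 1 < n := by omega
  have e1 : kx n i = bx i := if_pos hi1
  have hb1 := bx_pos i
  have hb2 : bx i ≤ ((n - 1 : ℕ) : ℤ) := bx_le (by omega) (by omega)
  have hn1 : ((n - 1 : ℕ) : ℤ) = n - 1 := by push_cast [Nat.cast_sub (by omega : 1 ≤ n)]; ring
  rw [hn1] at hs2 hb2
  have hn0 : (3 : ℤ) ≤ n := by exact_mod_cast hn
  by_cases hj1 : j + 1 < n
  · have e2 : kx n j = bx j := if_pos hj1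
    have e3 : bx j = j := if_neg (by omega)
    have e4 : bx i < bx j := by
      rw [e3]
      unfold bx
      split_ifs
      · exact_mod_cast h
      · exact_mod_cast hij
    have e5 : bx j ≤ n - 1 := by
      rw [← hn1]
      exact bx_le (by omega) (by omega)
    rw [e1, e2, abs_of_neg (by linarith)]
    constructor
    · linarith
    · nlinarith
  · have e2 : kx n j = - ∑ l ∈ Finset.range (n - 1), bx l := if_neg hj1
    rw [e1, e2, abs_of_pos (by linarith)]
    constructor
    · linarith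
    · nlinarith

variable {F : Type*} [Field F] {n : ℕ}

theorem prod_zpow_kx (hn : 3 ≤ n) {G : Type*} [CommGroup G] (u : G) : ∏ i : Fin n, u ^ kx n i = 1 := by
  have h : ∀ s : Finset (Fin n), ∏ i ∈ s, u ^ kx n i = u ^ (∑ i ∈ s, kx n i) := by
    intro s
    induction s using Finset.induction_on with
    | empty => simp
    | insert a s ha ih => rw [Finset.prod_insert ha, Finset.sum_insert ha, _root_.zpow_add, ih]
  rw [h, sum_kx hn, zpow_zero]

/-- The torus `diag(u, u, u², …)`. -/
def tor (hn : 3 ≤ n) (F : Type*) [Field F] : Fˣ →* Matrix.SpecialLinearGroup (Fin n) F where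
  toFun u := ⟨Matrix.diagonal fun i : Fin n => ((u ^ kx n i : Fˣ) : F), by
    rw [Matrix.det_diagonal, ← Units.coe_prod, prod_zpow_kx hn, Units.val_one]⟩
  map_one' := by
    apply Subtype.ext
    simp
  map_mul' u v := by
    apply Subtype.ext
    show (Matrix.diagonal fun i : Fin n => (((u * v) ^ kx n i : Fˣ) : F)) = Matrix.diagonal _ * Matrix.diagonal _
    rw [Matrix.diagonal_mul_diagonal]
    congr 1
    funext i
    rw [mul_zpow, Units.val_mul]

theorem tor_coe (hn : 3 ≤ n) (u : Fˣ) :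
    (tor hn F u : Matrix (Fin n) (Fin n) F) = Matrix.diagonal fun i : Fin n => ((u ^ kx n i : Fˣ) : F) := rfl

/-- the first two indices -/
def i0 (hn : 3 ≤ n) : Fin n := ⟨0, by omega⟩
def i1 (hn : 3 ≤ n) : Fin n := ⟨1, by omega⟩

theorem i01 (hn : 3 ≤ n) : i0 hn ≠ i1 hn := by simp [i0, i1]

/-- the transvection `1 + E₀₁` -/
def tv (hn : 3 ≤ n) (F : Type*) [Field F] : Matrix.SpecialLinearGroup (Fin n) F :=
  Matrix.SpecialLinearGroup.transvection (i01 hn) (1 : F)

theorem tv_coe (hn : 3 ≤ n) : (tv hn F : Matrix (Fin n) (Fin n) F) = 1 + Matrix.single (i0 hn) (i1 hn) 1 := rfl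

theorem kx_zero (hn : 3 ≤ n) : kx n (i0 hn) = 1 := by
  rw [kx, if_pos (by simp only [i0]; omega)]
  rfl

theorem kx_one (hn : 3 ≤ n) : kx n (i1 hn) = 1 := by
  rw [kx, if_pos (by simp only [i1]; omega)]
  rfl

theorem comm (hn : 3 ≤ n) (u : Fˣ) : Commute (tor hn F u) (tv hn F) := by
  apply Subtype.ext
  show Matrix.diagonal _ * (tv hn F : Matrix (Fin n) (Fin n) F) = (tv hn F : Matrix (Fin n) (Fin n) F) * Matrix.diagonal _
  rw [tv_coe, mul_add, add_mul, mul_one, one_mul]
  congr 1
  ext i j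
  rw [Matrix.diagonal_mul, Matrix.mul_diagonal, Matrix.single_apply]
  split_ifs with h
  · obtain ⟨rfl, rfl⟩ := h
    rw [mul_one, one_mul, kx_zero, kx_one]
  · rw [mul_zero, zero_mul]

/-! ### The centralizer -/

/-- the transvection, modulo scalars -/
theorem comm_tv {r : ℕ} [hr : Fact r.Prime] [CharP F r] (hn : 3 ≤ n) {g : Matrix.SpecialLinearGroup (Fin n) F}
    (h : pr (g * tv hn F) = pr (tv hn F * g)) : g * tv hn F = tv hn F * g := by
  obtain ⟨z, hz, hzy⟩ := (QuotientGroup.mk'_eq_mk' _).1 h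
  -- `g * tv * z = tv * g`
  have hp : ∀ k : ℕ, tv hn F ^ k = Matrix.SpecialLinearGroup.transvection (i01 hn) (k : F) := by
    intro k
    induction k with
    | zero => rw [pow_zero, Nat.cast_zero, Matrix.SpecialLinearGroup.transvection_coeff_zero]
    | succ k ih => rw [pow_succ, ih, Nat.cast_succ, tv, Matrix.SpecialLinearGroup.transvection_add]
  have hr1 : tv hn F ^ r = 1 := by
    rw [hp, CharP.cast_eq_zero, Matrix.SpecialLinearGroup.transvection_coeff_zero]
  have h1 : g⁻¹ * tv hn F * g⁻¹⁻¹ = tv hn F * z := by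
    calc g⁻¹ * tv hn F * g⁻¹⁻¹ = g⁻¹ * (tv hn F * g) := by group
      _ = g⁻¹ * (g * tv hn F * z) := by rw [hzy]
      _ = tv hn F * z := by group
  have hzc : Commute (tv hn F) z := Subgroup.mem_center_iff.1 hz _
  have h2 : z ^ r = 1 := by
    have h3 : (g⁻¹ * tv hn F * g⁻¹⁻¹) ^ r = (tv hn F * z) ^ r := by rw [h1]
    rw [conj_pow, hr1, hzc.mul_pow, hr1, one_mul] at h3
    rw [← h3]
    group
  obtain ⟨c, -, hc⟩ := Matrix.SpecialLinearGroup.mem_center_iff.1 hz
  have h4 : c ^ r = 1 := by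
    have h5 := congrArg (fun w : Matrix.SpecialLinearGroup (Fin n) F => (w : Matrix (Fin n) (Fin n) F)) h2
    simp only [Matrix.SpecialLinearGroup.coe_pow, Matrix.SpecialLinearGroup.coe_one] at h5
    rw [← hc, ← map_pow] at h5
    have h6 := congrFun (congrFun h5 (i0 hn)) (i0 hn)
    rw [Matrix.scalar_apply, Matrix.diagonal_apply_eq, Matrix.one_apply_eq] at h6
    exact h6
  have h5 : c = 1 := by
    have h6 : (c - 1) ^ r = 0 := by rw [sub_pow_char, h4, one_pow, sub_self]
    exact sub_eq_zero.1 (pow_eq_zero_iff hr.out.ne_zero |>.1 h6)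
  have h6 : z = 1 := by
    apply Subtype.ext
    rw [← hc, h5, map_one]
    rfl
  rw [h6, mul_one] at hzy
  exact hzy

theorem entries_tv (hn : 3 ≤ n) {g : Matrix.SpecialLinearGroup (Fin n) F} (h : g * tv hn F = tv hn F * g) :
    (∀ i, i ≠ i0 hn → (g : Matrix (Fin n) (Fin n) F) i (i0 hn) = 0) ∧
    (∀ j, j ≠ i1 hn → (g : Matrix (Fin n) (Fin n) F) (i1 hn) j = 0) ∧
    (g : Matrix (Fin n) (Fin n) F) (i0 hn) (i0 hn) = (g : Matrix (Fin n) (Fin n) F) (i1 hn) (i1 hn) := by
  have h1 : (g : Matrix (Fin n) (Fin n) F) * Matrix.single (i0 hn) (i1 hn) 1 =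
      Matrix.single (i0 hn) (i1 hn) 1 * (g : Matrix (Fin n) (Fin n) F) := by
    have h2 := congrArg (fun w : Matrix.SpecialLinearGroup (Fin n) F => (w : Matrix (Fin n) (Fin n) F)) h
    simp only [Matrix.SpecialLinearGroup.coe_mul, tv_coe, mul_add, add_mul, mul_one, one_mul] at h2
    exact add_left_cancel h2
  have h2 : ∀ i j, (if j = i1 hn then (g : Matrix (Fin n) (Fin n) F) i (i0 hn) else 0) =
      if i = i0 hn then (g : Matrix (Fin n) (Fin n) F) (i1 hn) j else 0 := by
    intro i j
    have h3 := congrFun (congrFun h1 i) j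
    by_cases hj : j = i1 hn
    · subst hj
      rw [Matrix.mul_single_apply_same, mul_one] at h3
      rw [if_pos rfl, h3]
      by_cases hi : i = i0 hn
      · subst hi
        rw [Matrix.single_mul_apply_same, one_mul, if_pos rfl]
      · rw [Matrix.single_mul_apply_of_ne _ _ _ _ _ hi, if_neg hi]
    · rw [Matrix.mul_single_apply_of_ne _ _ _ _ _ hj] at h3
      rw [if_neg hj, h3]
      by_cases hi : i = i0 hn
      · subst hi
        rw [Matrix.single_mul_apply_same, one_mul, if_pos rfl]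
      · rw [Matrix.single_mul_apply_of_ne _ _ _ _ _ hi, if_neg hi]
  refine ⟨fun i hi => ?_, fun j hj => ?_, ?_⟩
  · have := h2 i (i1 hn)
    rwa [if_pos rfl, if_neg hi] at this
  · have := h2 (i0 hn) j
    rw [if_neg hj, if_pos rfl] at this
    exact this.symm
  · have := h2 (i0 hn) (i1 hn)
    rwa [if_pos rfl, if_pos rfl] at this

/-- the shape of the centralizer -/
structure Sh (hn : 3 ≤ n) (g : Matrix.SpecialLinearGroup (Fin n) F) : Prop where
  off : ∀ i j, i ≠ j → ¬ (i = i0 hn ∧ j = i1 hn) → (g : Matrix (Fin n) (Fin n) F) i j = 0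
  eq : (g : Matrix (Fin n) (Fin n) F) (i0 hn) (i0 hn) = (g : Matrix (Fin n) (Fin n) F) (i1 hn) (i1 hn)

theorem sh_of {r : ℕ} [hr : Fact r.Prime] [CharP F r] (hn : 3 ≤ n) {a : Fˣ} (hord : n * n < orderOf a)
    {g : Matrix.SpecialLinearGroup (Fin n) F}
    (h1 : pr (g * tv hn F) = pr (tv hn F * g)) (h2 : pr (g * tor hn F a) = pr (tor hn F a * g)) : Sh hn g := by
  obtain ⟨e1, e2, e3⟩ := entries_tv hn (comm_tv (r := r) hn h1)
  obtain ⟨c, hc⟩ := exists_smul_of_pr_eq h2
  rw [Matrix.SpecialLinearGroup.coe_mul, Matrix.SpecialLinearGroup.coe_mul, tor_coe] at hc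
  have h3 : ∀ i j : Fin n, ((a ^ kx n i : Fˣ) : F) * (g : Matrix (Fin n) (Fin n) F) i j =
      c * ((g : Matrix (Fin n) (Fin n) F) i j * ((a ^ kx n j : Fˣ) : F)) := by
    intro i j
    have h4 := congrFun (congrFun hc i) j
    rw [Matrix.diagonal_mul, Matrix.smul_apply, Matrix.mul_diagonal, smul_eq_mul] at h4
    exact h4
  have h00 : (g : Matrix (Fin n) (Fin n) F) (i0 hn) (i0 hn) ≠ 0 := by
    intro h0
    have h5 : (g : Matrix (Fin n) (Fin n) F).det = 0 := by
      refine Matrix.det_eq_zero_of_column_eq_zero (i0 hn) fun i => ?_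
      by_cases hi : i = i0 hn
      · rw [hi, h0]
      · exact e1 i hi
    rw [g.2] at h5
    exact one_ne_zero h5
  have hc1 : c = 1 := by
    have h4 := h3 (i0 hn) (i0 hn)
    have h5 : ((a ^ kx n (i0 hn) : Fˣ) : F) ≠ 0 := Units.ne_zero _
    have h6 : (g : Matrix (Fin n) (Fin n) F) (i0 hn) (i0 hn) * ((a ^ kx n (i0 hn) : Fˣ) : F) ≠ 0 := mul_ne_zero h00 h5
    have h7 : 1 * ((g : Matrix (Fin n) (Fin n) F) (i0 hn) (i0 hn) * ((a ^ kx n (i0 hn) : Fˣ) : F)) =
        c * ((g : Matrix (Fin n) (Fin n) F) (i0 hn) (i0 hn) * ((a ^ kx n (i0 hn) : Fˣ) : F)) := by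
      rw [one_mul, ← h4, mul_comm]
    exact (mul_right_cancel₀ h6 h7).symm
  have key : ∀ i j : Fin n, (i : ℕ) < j → 2 ≤ (j : ℕ) → (a ^ kx n i : Fˣ) ≠ a ^ kx n j := by
    intro i j hij hj h
    obtain ⟨k1, k2⟩ := kx_bound hn i.2 j.2 hij hj
    have h4 : a ^ (kx n i - kx n j) = 1 := by rw [_root_.zpow_sub, h, mul_inv_cancel]
    have h5 : (orderOf a : ℤ) ∣ kx n i - kx n j := orderOf_dvd_iff_zpow_eq_one.2 h4
    have h6 := Int.le_of_dvd k1 ((dvd_abs _ _).2 h5)
    have h7 : (orderOf a : ℤ) ≤ n * n := h6.trans k2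
    have h8 : orderOf a ≤ n * n := by exact_mod_cast h7
    omega
  refine ⟨fun i j hij hne => ?_, e3⟩
  have h4 := h3 i j
  rw [hc1, one_mul] at h4
  by_contra h0
  have h5 : ((a ^ kx n i : Fˣ) : F) = ((a ^ kx n j : Fˣ) : F) := by
    rw [mul_comm] at h4
    exact mul_left_cancel₀ h0 h4
  have h6 : (a ^ kx n i : Fˣ) = a ^ kx n j := Units.ext h5
  rcases lt_trichotomy (i : ℕ) j with hlt | heq | hgt
  · by_cases hj : 2 ≤ (j : ℕ)
    · exact key i j hlt hj h6
    · apply hne
      constructor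
      · apply Fin.ext
        show (i : ℕ) = 0
        omega
      · apply Fin.ext
        show (j : ℕ) = 1
        omega
  · exact hij (Fin.ext heq)
  · by_cases hi : 2 ≤ (i : ℕ)
    · exact key j i hgt hi h6.symm
    · have hj0 : j = i0 hn := by
        apply Fin.ext
        show (j : ℕ) = 0
        omega
      rw [hj0] at h0 hij
      exact h0 (e1 i hij)

/-! ### Counting -/

theorem Sh.mul_diag {hn : 3 ≤ n} {g h : Matrix.SpecialLinearGroup (Fin n) F} (hg : Sh hn g) (hh : Sh hn h)
    (i : Fin n) : ((g * h : Matrix.SpecialLinearGroup (Fin n) F) : Matrix (Fin n) (Fin n) F) i i =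
      (g : Matrix (Fin n) (Fin n) F) i i * (h : Matrix (Fin n) (Fin n) F) i i := by
  rw [Matrix.SpecialLinearGroup.coe_mul, Matrix.mul_apply]
  refine Finset.sum_eq_single i (fun k _ hk => ?_) (fun h => absurd (Finset.mem_univ _) h)
  by_cases h1 : i = i0 hn ∧ k = i1 hn
  · obtain ⟨rfl, rfl⟩ := h1
    rw [hh.off (i1 hn) (i0 hn) (i01 hn).symm (fun h => (i01 hn).symm h.1), mul_zero]
  · rw [hg.off i k (Ne.symm hk) h1, zero_mul]

theorem Sh.mul_off {hn : 3 ≤ n} {g h : Matrix.SpecialLinearGroup (Fin n) F} (hg : Sh hn g) :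
    ((g * h : Matrix.SpecialLinearGroup (Fin n) F) : Matrix (Fin n) (Fin n) F) (i0 hn) (i1 hn) =
      (g : Matrix (Fin n) (Fin n) F) (i0 hn) (i0 hn) * (h : Matrix (Fin n) (Fin n) F) (i0 hn) (i1 hn) +
        (g : Matrix (Fin n) (Fin n) F) (i0 hn) (i1 hn) * (h : Matrix (Fin n) (Fin n) F) (i1 hn) (i1 hn) := by
  rw [Matrix.SpecialLinearGroup.coe_mul, Matrix.mul_apply]
  rw [← Finset.sum_pair (i01 hn) (f := fun k => (g : Matrix (Fin n) (Fin n) F) (i0 hn) k *
    (h : Matrix (Fin n) (Fin n) F) k (i1 hn))]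
  refine (Finset.sum_subset (Finset.subset_univ _) fun k _ hk => ?_).symm
  rw [Finset.mem_insert, Finset.mem_singleton, not_or] at hk
  rw [hg.off (i0 hn) k (Ne.symm hk.1) (fun h => hk.2 h.2), zero_mul]

theorem Sh.prod {hn : 3 ≤ n} {g : Matrix.SpecialLinearGroup (Fin n) F} (hg : Sh hn g) :
    ∏ i : Fin n, (g : Matrix (Fin n) (Fin n) F) i i = 1 := by
  rw [← Matrix.det_of_isUpperTriangular, g.2]
  intro i j hij
  refine hg.off i j (ne_of_gt hij) ?_
  rintro ⟨rfl, rfl⟩
  have : (i1 hn : Fin n) < i0 hn := hij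
  rw [Fin.lt_def] at this
  simp [i0, i1] at this

/-- the middle index -/
def mi (hn : 3 ≤ n) (j : Fin (n - 2)) : Fin n := ⟨j + 1, by omega⟩

theorem card_dvd [Fintype F] (hn : 3 ≤ n) (C : Subgroup (Matrix.SpecialLinearGroup (Fin n) F))
    (hC : ∀ g ∈ C, Sh hn g) : Nat.card C ∣ Fintype.card F * (Fintype.card F - 1) ^ (n - 2) := by
  let D : C →* (Fin (n - 2) → F) :=
    { toFun := fun g j => ((g : Matrix.SpecialLinearGroup (Fin n) F) : Matrix (Fin n) (Fin n) F) (mi hn j) (mi hn j)
      map_one' := by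
        funext j
        show (1 : Matrix (Fin n) (Fin n) F) (mi hn j) (mi hn j) = 1
        exact Matrix.one_apply_eq _
      map_mul' := fun g h => by
        funext j
        exact Sh.mul_diag (hC g g.2) (hC h h.2) (mi hn j) }
  let f := D.toHomUnits
  have h1 : Nat.card f.range ∣ (Fintype.card F - 1) ^ (n - 2) := by
    have h2 := Subgroup.card_subgroup_dvd_card f.range
    rw [Nat.card_congr (MulEquiv.piUnits (M := fun _ : Fin (n - 2) => F)).toEquiv, Nat.card_pi,
      Finset.prod_const, Finset.card_univ, Fintype.card_fin, Nat.card_units,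
      Nat.card_eq_fintype_card (α := F)] at h2
    exact h2
  have hdiag : ∀ g : C, f g = 1 → ∀ i : Fin n,
      ((g : Matrix.SpecialLinearGroup (Fin n) F) : Matrix (Fin n) (Fin n) F) i i = 1 := by
    intro g hg
    have h2 : ∀ j, ((g : Matrix.SpecialLinearGroup (Fin n) F) : Matrix (Fin n) (Fin n) F) (mi hn j) (mi hn j) = 1 := by
      intro j
      have h3 := congrArg Units.val hg
      exact congrFun h3 j
    have h3 : ∀ i : Fin n, (i : ℕ) + 1 < n →
        ((g : Matrix.SpecialLinearGroup (Fin n) F) : Matrix (Fin n) (Fin n) F) i i = 1 := by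
      intro i hi
      by_cases hi0 : (i : ℕ) = 0
      · have e1 : i = i0 hn := Fin.ext hi0
        have e2 : i1 hn = mi hn ⟨0, by omega⟩ := rfl
        rw [e1, (hC g g.2).eq, e2, h2]
      · have e1 : i = mi hn ⟨i - 1, by omega⟩ := by
          apply Fin.ext
          show (i : ℕ) = (i : ℕ) - 1 + 1
          omega
        rw [e1, h2]
    intro i
    by_cases hi : (i : ℕ) + 1 < n
    · exact h3 i hi
    · have h4 := (hC g g.2).prod
      rw [Finset.prod_eq_single i] at h4
      · exact h4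
      · intro j _ hj
        apply h3
        have := i.2
        have := j.2
        have : (j : ℕ) ≠ i := fun h => hj (Fin.ext h)
        omega
      · intro h
        exact absurd (Finset.mem_univ _) h
  let κ : f.ker →* Multiplicative F :=
    { toFun := fun g => Multiplicative.ofAdd
        ((((g : C) : Matrix.SpecialLinearGroup (Fin n) F) : Matrix (Fin n) (Fin n) F) (i0 hn) (i1 hn))
      map_one' := by
        show Multiplicative.ofAdd ((1 : Matrix (Fin n) (Fin n) F) (i0 hn) (i1 hn)) = 1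
        rw [Matrix.one_apply_ne (i01 hn)]
        rfl
      map_mul' := fun g h => by
        show Multiplicative.ofAdd _ = Multiplicative.ofAdd _ * Multiplicative.ofAdd _
        rw [← ofAdd_add]
        congr 1
        refine (Sh.mul_off (hC (g : C) (g : C).2)).trans ?_
        rw [hdiag g g.2, hdiag h h.2, one_mul, mul_one, add_comm] }
  have hκ : Function.Injective κ := by
    rw [injective_iff_map_eq_one]
    intro g hg
    have h2 : (((g : C) : Matrix.SpecialLinearGroup (Fin n) F) : Matrix (Fin n) (Fin n) F) (i0 hn) (i1 hn) = 0 := hg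
    apply Subtype.ext
    apply Subtype.ext
    apply Subtype.ext
    show (((g : C) : Matrix.SpecialLinearGroup (Fin n) F) : Matrix (Fin n) (Fin n) F) = 1
    ext i j
    by_cases hij : i = j
    · subst hij
      rw [hdiag g g.2, Matrix.one_apply_eq]
    · rw [Matrix.one_apply_ne hij]
      by_cases h3 : i = i0 hn ∧ j = i1 hn
      · obtain ⟨rfl, rfl⟩ := h3
        exact h2
      · exact (hC (g : C) (g : C).2).off i j hij h3
  have h2 : Nat.card f.ker ∣ Fintype.card F := by
    have h3 := Subgroup.card_dvd_of_injective κ hκ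
    have h4 : Nat.card (Multiplicative F) = Fintype.card F := by
      rw [Nat.card_congr Multiplicative.toAdd, Nat.card_eq_fintype_card]
    rwa [h4] at h3
  rw [← f.ker.card_mul_index, Subgroup.index_ker]
  exact Nat.mul_dvd_mul h2 h1

/-- the class size is divisible by all the primes -/
theorem dvd_index [Fintype F] {r f : ℕ} (hr : r.Prime) (hf : 0 < f) (hq : Fintype.card F = r ^ f) (hn : 3 ≤ n)
    (C : Subgroup (Matrix.SpecialLinearGroup (Fin n) F)) (hC : ∀ g ∈ C, Sh hn g) {p : ℕ} (hp : p.Prime)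
    (hpG : p ∣ Nat.card (Matrix.SpecialLinearGroup (Fin n) F)) : p ∣ C.index := by
  have hdvd := card_dvd hn C hC
  have hmul := C.card_mul_index
  have hq1 : 1 < Fintype.card F := Fintype.one_lt_card
  have hS := S0242.result (F := F) rfl n (by omega)
  set q := Fintype.card F with hqd
  set N := Nat.card (Matrix.SpecialLinearGroup (Fin n) F) with hN
  have hfac : ∀ i : Fin n, q ^ n - q ^ (i : ℕ) = q ^ (i : ℕ) * (q ^ (n - i) - 1) := by
    intro i
    rw [Nat.mul_sub, mul_one, ← pow_add, Nat.add_sub_cancel' i.2.le]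
  -- `(q - 1) ^ (n - 1)` and `q ^ 3` divide the order
  have h1 : (q - 1) ^ (n - 1) ∣ N := by
    have h2 : (q - 1) ^ n ∣ ∏ i : Fin n, (q ^ n - q ^ (i : ℕ)) := by
      have h3 : ∏ _i : Fin n, (q - 1) ∣ ∏ i : Fin n, (q ^ n - q ^ (i : ℕ)) := by
        apply Finset.prod_dvd_prod_of_dvd
        intro i _
        rw [hfac]
        exact Dvd.dvd.mul_left (Nat.sub_one_dvd_pow_sub_one q _) _
      simpa using h3
    rw [← hS] at h2
    have h3 : (q - 1) ^ n = (q - 1) * (q - 1) ^ (n - 1) := by
      rw [← pow_succ']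
      congr 1
      omega
    rw [h3] at h2
    exact Nat.dvd_of_mul_dvd_mul_left (by omega) h2
  have h2 : q ^ 2 ∣ N := by
    have h3 : q ^ 2 ∣ ∏ i : Fin n, (q ^ n - q ^ (i : ℕ)) := by
      refine Dvd.dvd.trans ?_ (Finset.dvd_prod_of_mem _ (Finset.mem_univ (⟨2, by omega⟩ : Fin n)))
      rw [hfac]
      exact dvd_mul_right _ _
    rw [← hS] at h3
    exact (Nat.Coprime.pow_left 2 (by
      rw [Nat.coprime_comm]
      exact (Nat.coprime_self_sub_left hq1.le).2 (Nat.coprime_one_left q))).dvd_of_dvd_mul_left h3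
  have hrq : r ∣ q := by rw [hq]; exact dvd_pow_self r hf.ne'
  have hcop : (q - 1).Coprime q := (Nat.coprime_self_sub_left hq1.le).2 (Nat.coprime_one_left q)
  by_cases hpr : p = r
  · subst hpr
    by_contra hcon
    have h3 : q ^ 2 ∣ Nat.card C := by
      rw [← hmul] at h2
      refine Nat.Coprime.dvd_of_dvd_mul_right ?_ h2
      rw [hq, ← pow_mul]
      exact ((Nat.Prime.coprime_iff_not_dvd hp).2 hcon).pow_left _
    have h4 := h3.trans hdvd
    rw [pow_two] at h4
    have h5 := Nat.dvd_of_mul_dvd_mul_left (by omega) h4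
    have h6 : q.Coprime ((q - 1) ^ (n - 2)) := Nat.Coprime.pow_right _ hcop.symm
    have h7 := Nat.Coprime.eq_one_of_dvd h6 h5
    omega
  · by_cases hp1 : p ∣ q - 1
    · have h3 : (q - 1) ^ (n - 1) ∣ q * (q - 1) ^ (n - 2) * C.index :=
        (h1.trans (hmul ▸ dvd_rfl)).trans (Nat.mul_dvd_mul_right hdvd _)
      have h4 : (q - 1) ^ (n - 1) = (q - 1) ^ (n - 2) * (q - 1) := by
        rw [← pow_succ]
        congr 1
        omega
      have h5 : q * (q - 1) ^ (n - 2) * C.index = (q - 1) ^ (n - 2) * (q * C.index) := by ring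
      rw [h4, h5] at h3
      have h6 := Nat.dvd_of_mul_dvd_mul_left (pow_pos (by omega) _) h3
      rcases (Nat.Prime.dvd_mul hp).1 (hp1.trans h6) with h7 | h7
      · exfalso
        have h8 := Nat.dvd_gcd hp1 h7
        rw [hcop] at h8
        exact hp.one_lt.ne' (Nat.dvd_one.1 h8)
      · exact h7
    · rw [← hmul] at hpG
      rcases (Nat.Prime.dvd_mul hp).1 hpG with h3 | h3
      · exfalso
        rcases (Nat.Prime.dvd_mul hp).1 (h3.trans hdvd) with h4 | h4
        · rw [hq] at h4
          exact hpr ((Nat.prime_dvd_prime_iff_eq hp hr).1 (hp.dvd_of_dvd_pow h4))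
        · exact hp1 (hp.dvd_of_dvd_pow h4)
      · exact h3

/-! ### The primes up to `n` -/

/-- the permutation matrices -/
theorem dvd_of_le [Finite F] {t : ℕ} (ht : t.Prime) (ht2 : t ≠ 2) (htn : t ≤ n) :
    t ∣ Nat.card (Matrix.ProjectiveSpecialLinearGroup (Fin n) F) := by
  have : Fact t.Prime := ⟨ht⟩
  obtain ⟨σ, hσ⟩ := exists_prime_orderOf_dvd_card (G := Equiv.Perm (Fin n)) t (by
    rw [Fintype.card_perm, Fintype.card_fin]
    exact (Nat.Prime.dvd_factorial ht).2 htn)
  have hsign : Equiv.Perm.sign σ = 1 := by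
    rcases Int.units_eq_one_or (Equiv.Perm.sign σ) with h | h
    · exact h
    · exfalso
      have h1 : Equiv.Perm.sign σ ^ t = 1 := by rw [← map_pow, ← hσ, pow_orderOf_eq_one, map_one]
      rw [h, (ht.odd_of_ne_two ht2).neg_one_pow] at h1
      exact absurd h1 (by decide)
  let g : Matrix.SpecialLinearGroup (Fin n) F := ⟨σ.permMatrix F, by
    rw [Matrix.det_permutation, hsign, Units.val_one, Int.cast_one]⟩
  have hpow : ∀ k : ℕ, σ.permMatrix F ^ k = (σ ^ k).permMatrix F := by
    intro k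
    induction k with
    | zero => rw [pow_zero, pow_zero, Matrix.permMatrix_one]
    | succ k ih => rw [pow_succ, ih, pow_succ', Matrix.permMatrix_mul]
  have hg3 : g ^ t = 1 := by
    apply Subtype.ext
    show σ.permMatrix F ^ t = 1
    rw [hpow, ← hσ, pow_orderOf_eq_one, Matrix.permMatrix_one]
  have hg1 : pr g ≠ 1 := by
    intro h
    rw [pr_eq_one_iff, Matrix.SpecialLinearGroup.mem_center_iff] at h
    obtain ⟨c, -, hc'⟩ := h
    have hσ1 : σ ≠ 1 := by
      intro h
      rw [h, orderOf_one] at hσ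
      exact ht.one_lt.ne hσ
    obtain ⟨i, hi⟩ : ∃ i, σ i ≠ i := by
      by_contra hcon
      push Not at hcon
      exact hσ1 (Equiv.ext hcon)
    have h1 := congrFun (congrFun hc' i) (σ i)
    rw [Matrix.scalar_apply, Matrix.diagonal_apply_ne _ (Ne.symm hi)] at h1
    have h3 : (g : Matrix (Fin n) (Fin n) F) i (σ i) = 1 := by
      show σ.permMatrix F _ _ = 1
      rw [Equiv.Perm.permMatrix, PEquiv.toMatrix_apply, if_pos]
      simp
    rw [h3] at h1
    exact zero_ne_one h1
  have h3 : orderOf (pr g) = t := orderOf_eq_prime (by rw [← map_pow, hg3, map_one]) hg1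
  rw [← h3]
  exact orderOf_dvd_natCard _

theorem sq_lt (n : ℕ) : n * n + 2 ≤ 2 ^ (n + 1) + n := by
  induction n with
  | zero => norm_num
  | succ n ih =>
    have h1 : n < 2 ^ n := Nat.lt_two_pow_self
    have h2 : 2 ^ (n + 1 + 1) = 2 ^ (n + 1) + 2 * 2 ^ n := by ring
    have h3 : (n + 1) * (n + 1) = n * n + 2 * n + 1 := by ring
    omega

/-- **`XRow` for the linear groups.** -/
theorem xRow_psl {r : ℕ} [hr : Fact r.Prime] {F : Type*} [Field F] [Fintype F] [CharP F r] {n : ℕ} (hn : 3 ≤ n)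
    [IsSimpleGroup (Matrix.ProjectiveSpecialLinearGroup (Fin n) F)] :
    Cfsg.Agent.H730.Pair.XRow r (Matrix.ProjectiveSpecialLinearGroup (Fin n) F) := by
  intro hcop
  have hna := H164.TRowPSL.not_comm hn F
  have h2 := H254.CopMain.two_dvd (Matrix.ProjectiveSpecialLinearGroup (Fin n) F) hna
  obtain ⟨ρ, hρ, -⟩ := H254.exists_ringAut F
  set φ : (F ≃+* F) →* MulAut (Matrix.ProjectiveSpecialLinearGroup (Fin n) F) :=
    (lift : _ →* MulAut (Matrix.ProjectiveSpecialLinearGroup (Fin n) F)).comp (fld : (F ≃+* F) →* _) with hφ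
  have hci : ConjIn (Matrix.ProjectiveSpecialLinearGroup (Fin n) F) φ.range :=
    ConjIn.of_copIn (H254.PSL.copIn (by omega) (fun h => by omega) hna h2 ρ hρ) ⟨ρ, rfl⟩
  -- the field is large
  obtain ⟨f, hf0, hqf⟩ : ∃ f : ℕ, 0 < f ∧ Fintype.card F = r ^ f := by
    obtain ⟨f, -, hf⟩ := FiniteField.card F r
    exact ⟨f, f.pos, hf⟩
  have hbig : n * n < Fintype.card F - 1 := by
    obtain ⟨t, ht, htK, α, hα⟩ := hcop
    have htn : n < t := by
      by_contra hcon
      by_cases ht2 : t = 2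
      · exact htK (ht2 ▸ h2)
      · exact htK (dvd_of_le ht ht2 (by omega))
    have hcard : Nat.card (Subgroup.zpowers α) = t := by rw [Nat.card_zpowers, hα]
    obtain ⟨g, hg⟩ := hci (Subgroup.zpowers α) (by
      rw [hcard]
      exact (Nat.Prime.coprime_iff_not_dvd ht).2 htK)
    have h3 : t ∣ Nat.card (F ≃+* F) := by
      have h4 := Subgroup.card_dvd_of_le hg
      rw [Subgroup.card_map_of_injective (MulAut.conj g).injective, hcard] at h4
      exact h4.trans (Subgroup.card_range_dvd φ)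
    rw [Lib.FieldAutCard.card_ringAut hf0 hqf] at h3
    have h4 : t ≤ f := Nat.le_of_dvd hf0 h3
    have h5 : 2 ^ (n + 1) ≤ Fintype.card F := by
      rw [hqf]
      exact (Nat.pow_le_pow_right (by norm_num) (by omega)).trans (Nat.pow_le_pow_left hr.out.two_le f)
    have h6 := sq_lt n
    by_cases hn5 : 5 ≤ t
    · have h7 : 2 ^ 5 ≤ Fintype.card F := by
        rw [hqf]
        exact (Nat.pow_le_pow_right (by norm_num) (by omega)).trans (Nat.pow_le_pow_left hr.out.two_le f)
      by_cases hn4 : n ≤ 4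
      · have : n = 3 ∨ n = 4 := by omega
        rcases this with rfl | rfl <;> omega
      · have h8 : n * n + n + 2 ≤ 2 ^ (n + 1) := by
          clear h6 h5 h7 h4 h3 hcard hg htn
          obtain ⟨m, rfl⟩ : ∃ m, n = m + 5 := ⟨n - 5, by omega⟩
          clear * -
          induction m with
          | zero => norm_num
          | succ m ih =>
            have h2 : 2 ^ (m + 1 + 5 + 1) = 2 * 2 ^ (m + 5 + 1) := by ring
            have h3 : (m + 1 + 5) * (m + 1 + 5) = (m + 5) * (m + 5) + 2 * (m + 5) + 1 := by ring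
            have h4 : m * 4 ≤ m * m + m * 10 := by nlinarith
            have h5 : (m + 5) * (m + 5) = m * m + 10 * m + 25 := by ring
            omega
        omega
    · exfalso
      have : t = 4 := by omega
      rw [this] at ht
      exact absurd ht (by norm_num)
  obtain ⟨a, ha⟩ := IsCyclic.exists_generator (α := Fˣ)
  have hord : n * n < orderOf a := by
    rw [orderOf_eq_card_of_forall_mem_zpowers ha, Nat.card_units, Nat.card_eq_fintype_card (α := F)]
    exact hbig
  -- the elements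
  set e := pr (tor hn F a) with he
  set v := pr (tv hn F) with hv
  have hvo : orderOf v = r := H164.TRowPSL.orderOf_pr_transvection (i01 hn)
  have hev : Commute e v := (comm hn a).map pr
  have heo : (orderOf e).Coprime (orderOf v) := by
    rw [hvo]
    have h3 : orderOf e ∣ Fintype.card F - 1 := by
      have h4 : orderOf e ∣ orderOf a := by
        have : e = (pr.comp (tor hn F)) a := rfl
        rw [this]
        exact orderOf_map_dvd _ a
      refine h4.trans ?_
      rw [orderOf_eq_card_of_forall_mem_zpowers ha, Nat.card_units, Nat.card_eq_fintype_card (α := F)]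
    refine Nat.Coprime.coprime_dvd_left h3 ?_
    have h5 : (Fintype.card F - 1).Coprime (Fintype.card F) :=
      (Nat.coprime_self_sub_left Fintype.one_lt_card.le).2 (Nat.coprime_one_left _)
    refine Nat.Coprime.coprime_dvd_right ?_ h5
    rw [hqf]
    exact dvd_pow_self r hf0.ne'
  have hgen : Gen (Matrix.ProjectiveSpecialLinearGroup (Fin n) F) e := by
    refine Gen.of_hom φ hci (pr.comp (tor hn F)) ?_ (c := 3) (by norm_num) ?_ ?_ ha
    · intro τ u
      show lift (fld τ) (pr (tor hn F u)) = pr (tor hn F (Units.map (τ : F →* F) u))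
      rw [lift_pr]
      congr 1
      apply Subtype.ext
      show (Matrix.diagonal fun i : Fin n => ((u ^ kx n i : Fˣ) : F)).map (τ : F →+* F) = _
      rw [tor_coe, Matrix.diagonal_map (map_zero _)]
      congr 1
      funext i
      rw [← map_zpow]
      rfl
    · intro u hu
      have h3 : pr (1 : Matrix.SpecialLinearGroup (Fin n) F) = pr (tor hn F u) := by
        rw [map_one]
        exact hu.symm
      obtain ⟨c, hc⟩ := exists_smul_of_pr_eq h3
      rw [tor_coe, Matrix.SpecialLinearGroup.coe_one] at hc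
      have h4 := congrFun (congrFun hc ⟨1, by omega⟩) ⟨1, by omega⟩
      have h5 := congrFun (congrFun hc ⟨2, by omega⟩) ⟨2, by omega⟩
      rw [Matrix.diagonal_apply_eq, Matrix.smul_apply, Matrix.one_apply_eq, smul_eq_mul, mul_one] at h4 h5
      have h6 : (u ^ kx n 1 : Fˣ) = u ^ kx n 2 := Units.ext (h4.trans h5.symm)
      have h7 : kx n 1 = 1 := kx_one hn
      rw [h7] at h6
      have h9 : u ^ (kx n 2 - 1) = 1 := by rw [_root_.zpow_sub_one, ← h6, zpow_one, mul_inv_cancel]
      by_cases hn3 : n = 3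
      · subst hn3
        have h8 : kx 3 2 = -2 := by decide
        rw [h8] at h9
        have h10 : u ^ (3 : ℤ) = 1 := by
          have h11 : (3 : ℤ) = -(-2 - 1) := by norm_num
          rw [h11, _root_.zpow_neg, h9, inv_one]
        exact_mod_cast h10
      · have h8 : kx n 2 = 2 := by
          rw [kx, if_pos (by omega)]
          rfl
        rw [h8] at h9
        have h10 : u = 1 := by
          have h11 : (2 : ℤ) - 1 = 1 := by norm_num
          rwa [h11, zpow_one] at h9
        rw [h10, one_pow]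
    · intro p hp hp3
      interval_cases p
      · exact absurd hp (by norm_num)
      · exact absurd hp (by norm_num)
      · exact h2
      · exact H164.TRowPSL.three_dvd hn
  refine ⟨e * v, ?_, hgen.mul hev heo, ?_⟩
  · have h3 : v ∈ Subgroup.zpowers (e * v) := by
      have h4 := mem_zpowers_mul hev heo
      have h5 : e⁻¹ * (e * v) = v := by group
      have h6 := Subgroup.mul_mem _ (Subgroup.inv_mem _ h4) (Subgroup.mem_zpowers (e * v))
      rwa [h5] at h6
    obtain ⟨k, hk⟩ := h3
    have h6 : orderOf v ∣ orderOf (e * v) := by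
      have hk' : (e * v) ^ k = v := hk
      conv_lhs => rw [← hk']
      exact orderOf_dvd_of_mem_zpowers (Subgroup.zpow_mem_zpowers _ _)
    rwa [hvo] at h6
  · intro p hp hpK
    have hsurj : Function.Surjective (pr : Matrix.SpecialLinearGroup (Fin n) F →* _) := pr_surjective
    rw [← Subgroup.index_comap_of_surjective _ hsurj]
    refine dvd_index hr.out hf0 hqf hn _ ?_ hp (hpK.trans (Subgroup.card_dvd_of_surjective _ hsurj))
    intro g hg
    have hg1 : pr g * (e * v) = e * v * pr g := Subgroup.mem_centralizer_singleton_iff.1 hg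
    have hge : Commute (pr g) e := by
      obtain ⟨k, hk⟩ := mem_zpowers_mul hev heo
      have hk' : (e * v) ^ k = e := hk
      rw [← hk']
      exact (show Commute (pr g) (e * v) from hg1).zpow_right k
    have hgv : Commute (pr g) v := by
      have h5 : e⁻¹ * (e * v) = v := by group
      have h6 : Commute (pr g) (e⁻¹ * (e * v)) := hge.inv_right.mul_right hg1
      rwa [h5] at h6
    exact sh_of (r := r) hn hord (by rw [map_mul, map_mul]; exact hgv.eq) (by rw [map_mul, map_mul]; exact hge.eq)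

end Cfsg.Agent.H679.XRowPSL
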